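import Cfsg.Agent.R2.T1.N7.H.Def

/-!
# S5929, `n = 7`: the classes of elements of order 4, 5, 7 of `A₇` (helper5)

* `type5`, `type4`, `type7` : the cycle types;
* `ev5`, `ev4`, `ev7` : the dimensions of the fixed points depend only on the order.
-/

set_option autoImplicit false
set_option maxRecDepth 100000

universe u v

namespace Cfsg.Agent.R2.T1.N7H

open Equiv Equiv.Perm Module
open Cfsg.Agent.R2.T1.N7 Cfsg.Agent.R2.T1.Odd
open Cfsg.Agent.H952.F4 (ev)

theorem prime_type {σ : Perm (Fin 7)} {p : ℕ} (hp : p.Prime) (hp4 : 4 ≤ p) (h : orderOf σ = p) : σ.cycleType = {p} := by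
  obtain ⟨n, hn⟩ := cycleType_prime_order (by rw [h]; exact hp)
  rw [h] at hn
  have h1 : σ.cycleType.sum ≤ 7 := by
    have := sum_cycleType_le σ
    rwa [Fintype.card_fin] at this
  rw [hn, Multiset.sum_replicate, smul_eq_mul] at h1
  have h2 : n = 0 := by
    by_contra h0
    have h3 : 2 ≤ n + 1 := by omega
    have := Nat.mul_le_mul h3 hp4
    omega
  rw [hn, h2]
  rfl

theorem type5 {x : A7} (hx : orderOf x = 5) : (x : Perm (Fin 7)).cycleType = {5} :=
  prime_type (by norm_num) (by norm_num) (by rw [Subgroup.orderOf_coe, hx])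

theorem type7 {x : A7} (hx : orderOf x = 7) : (x : Perm (Fin 7)).cycleType = {7} :=
  prime_type (by norm_num) (by norm_num) (by rw [Subgroup.orderOf_coe, hx])

theorem type4 {x : A7} (hx : orderOf x = 4) : (x : Perm (Fin 7)).cycleType = {4, 2} := by
  have h1 : (x : Perm (Fin 7)).cycleType.sum ≤ 7 := by
    have := sum_cycleType_le (x : Perm (Fin 7))
    rwa [Fintype.card_fin] at this
  have h2 : (x : Perm (Fin 7)).cycleType.lcm = 4 := by rw [lcm_cycleType, Subgroup.orderOf_coe, hx]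
  have h3 := mem_alternatingGroup.1 x.2
  rw [sign_of_cycleType] at h3
  have h4 : ∀ k ∈ (x : Perm (Fin 7)).cycleType, k = 2 ∨ k = 4 := by
    intro k hk
    have h5 : k ∣ 4 := by rw [← h2]; exact Multiset.dvd_lcm hk
    have h6 := two_le_of_mem_cycleType hk
    have h7 := Nat.le_of_dvd (by norm_num) h5
    interval_cases k
    · exact Or.inl rfl
    · norm_num at h5
    · exact Or.inr rfl
  generalize (x : Perm (Fin 7)).cycleType = m at *
  have h5 : m.card * 2 ≤ m.sum := by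
    have := Multiset.card_nsmul_le_sum (s := m) (a := 2) fun k hk => by
      rcases h4 k hk with h | h <;> omega
    rwa [smul_eq_mul] at this
  have h6 : m.card ≤ 3 := by omega
  have hcases : m.card = 0 ∨ m.card = 1 ∨ m.card = 2 ∨ m.card = 3 := by omega
  rcases hcases with h | h | h | h
  · rw [Multiset.card_eq_zero] at h
    subst h
    simp at h2
  · obtain ⟨a, rfl⟩ := Multiset.card_eq_one.1 h
    rcases h4 a (by simp) with rfl | rfl
    · exact absurd h3 (by decide)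
    · exact absurd h3 (by decide)
  · obtain ⟨a, b, rfl⟩ := Multiset.card_eq_two.1 h
    rcases h4 a (by simp) with rfl | rfl <;> rcases h4 b (by simp) with rfl | rfl
    · exact absurd h2 (by decide)
    · exact Multiset.pair_comm 2 4
    · rfl
    · simp at h1
  · obtain ⟨a, b, c, rfl⟩ := Multiset.card_eq_three.1 h
    rcases h4 a (by simp) with rfl | rfl <;> rcases h4 b (by simp) with rfl | rfl <;>
      rcases h4 c (by simp) with rfl | rfl
    all_goals first | exact absurd h3 (by decide) | (simp at h1)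

/-- conjugacy in `A₇`, if an odd permutation commutes with the representative -/
theorem cj {r g : A7} (hct : (r : Perm (Fin 7)).cycleType = (g : Perm (Fin 7)).cycleType)
    {κ : Perm (Fin 7)} (hκ : sign κ = -1) (hc : κ * r = r * κ) : ∃ c : A7, c * r * c⁻¹ = g := by
  obtain ⟨σ, hσ⟩ := isConj_iff.1 (isConj_iff_cycleType_eq.2 hct)
  rcases Int.units_eq_one_or (sign σ) with h3 | h3
  · exact ⟨⟨σ, h3⟩, Subtype.ext hσ⟩
  · refine ⟨⟨σ * κ, ?_⟩, Subtype.ext ?_⟩
    · rw [mem_alternatingGroup, map_mul, h3, hκ]; rfl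
    · change σ * κ * (r : Perm (Fin 7)) * (σ * κ)⁻¹ = g
      rw [← hσ]
      calc σ * κ * (r : Perm (Fin 7)) * (σ * κ)⁻¹ = σ * (κ * r) * κ⁻¹ * σ⁻¹ := by group
        _ = σ * (r * κ) * κ⁻¹ * σ⁻¹ := by rw [hc]
        _ = _ := by group

/-- conjugacy in `A₇` up to inversion, if an odd permutation inverts the representative -/
theorem cj_inv {r g : A7} (hct : (r : Perm (Fin 7)).cycleType = (g : Perm (Fin 7)).cycleType)
    {κ : Perm (Fin 7)} (hκ : sign κ = -1) (hc : κ * r * κ⁻¹ = (r : Perm (Fin 7))⁻¹) :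
    ∃ c : A7, c * r * c⁻¹ = g ∨ c * r⁻¹ * c⁻¹ = g := by
  obtain ⟨σ, hσ⟩ := isConj_iff.1 (isConj_iff_cycleType_eq.2 hct)
  rcases Int.units_eq_one_or (sign σ) with h3 | h3
  · exact ⟨⟨σ, h3⟩, Or.inl (Subtype.ext hσ)⟩
  · refine ⟨⟨σ * κ, ?_⟩, Or.inr (Subtype.ext ?_)⟩
    · rw [mem_alternatingGroup, map_mul, h3, hκ]; rfl
    · change σ * κ * (r : Perm (Fin 7))⁻¹ * (σ * κ)⁻¹ = g
      have h4 : κ * (r : Perm (Fin 7))⁻¹ * κ⁻¹ = r := by
        calc κ * (r : Perm (Fin 7))⁻¹ * κ⁻¹ = (κ * (r : Perm (Fin 7)) * κ⁻¹)⁻¹ := by group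
          _ = r := by rw [hc, inv_inv]
      calc σ * κ * (r : Perm (Fin 7))⁻¹ * (σ * κ)⁻¹ = σ * (κ * (r : Perm (Fin 7))⁻¹ * κ⁻¹) * σ⁻¹ := by group
        _ = g := by rw [h4, hσ]

variable {F : Type u} [Field F] {M : Type v} [AddCommGroup M] [Module F M] (ρ : Representation F A7 M)

theorem ev_inv_aux (x : A7) (v : M) : ρ x⁻¹ v = v ↔ ρ x v = v := by
  have h1 : ∀ u, ρ x (ρ x⁻¹ u) = u := fun u => by
    rw [← Module.End.mul_apply, ← map_mul, mul_inv_cancel, map_one]; rfl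
  have h2 : ∀ u, ρ x⁻¹ (ρ x u) = u := fun u => by
    rw [← Module.End.mul_apply, ← map_mul, inv_mul_cancel, map_one]; rfl
  constructor
  · intro h
    conv_lhs => rw [← h]
    exact h1 v
  · intro h
    conv_lhs => rw [← h]
    exact h2 v

theorem ev_inv1 (x : A7) : ev (ρ x⁻¹) 1 = ev (ρ x) 1 := by
  have key : Module.End.eigenspace (ρ x⁻¹) 1 = Module.End.eigenspace (ρ x) 1 := by
    ext v
    rw [Module.End.mem_eigenspace_iff, Module.End.mem_eigenspace_iff, one_smul]
    exact ev_inv_aux ρ x v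
  unfold ev
  rw [key]
theorem ev5 {x : A7} (hx : orderOf x = 5) : ev (ρ x) 1 = ev (ρ (P 7 N7.l5)) 1 := by
  have ho : orderOf (P 7 N7.l5) = 5 := orderOf_P (n := 7) (m := 7) le_rfl (by decide +kernel)
  obtain ⟨c, hc⟩ := cj (r := P 7 N7.l5) (g := x) ((type5 ho).trans (type5 hx).symm) (κ := swap 5 6) (by decide)
    (by rw [coe_P (n := 7) (m := 7) le_rfl (by decide)]; decide +kernel)
  rw [← hc]
  exact Cfsg.Agent.H944.E6T.ev_conj ρ c (P 7 N7.l5) 1

theorem ev4 {x : A7} (hx : orderOf x = 4) : ev (ρ x) 1 = ev (ρ (P 7 l42)) 1 := by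
  have ho : orderOf (P 7 l42) = 4 := orderOf_P (n := 7) (m := 7) le_rfl (by decide +kernel)
  obtain ⟨c, hc⟩ := cj (r := P 7 l42) (g := x) ((type4 ho).trans (type4 hx).symm) (κ := swap 4 5) (by decide)
    (by rw [coe_P (n := 7) (m := 7) le_rfl (by decide)]; decide +kernel)
  rw [← hc]
  exact Cfsg.Agent.H944.E6T.ev_conj ρ c (P 7 l42) 1

theorem ev7 {x : A7} (hx : orderOf x = 7) : ev (ρ x) 1 = ev (ρ (P 7 lc)) 1 := by
  have ho : orderOf (P 7 lc) = 7 := orderOf_P (n := 7) (m := 7) le_rfl (by decide +kernel)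
  obtain ⟨c, hc⟩ := cj_inv (r := P 7 lc) (g := x) ((type7 ho).trans (type7 hx).symm)
    (κ := swap 1 6 * swap 2 3 * swap 4 5) (by decide)
    (by rw [coe_P (n := 7) (m := 7) le_rfl (by decide)]; decide +kernel)
  rcases hc with hc | hc
  · rw [← hc]
    exact Cfsg.Agent.H944.E6T.ev_conj ρ c (P 7 lc) 1
  · rw [← hc, Cfsg.Agent.H944.E6T.ev_conj ρ c (P 7 lc)⁻¹ 1, ev_inv1]

end Cfsg.Agent.R2.T1.N7H
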