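import Cfsg.Agent.R2.T1.N7.H.Def

/-!
# S5929, `n = 7`, `p = 3`: the dimensions of the fixed spaces of `V₄` and `D₈` (helper23)
-/

set_option autoImplicit false
set_option maxRecDepth 100000

namespace Cfsg.Agent.R2.T1.N7H

open Module
open Cfsg.Agent.R2.T1.Odd
open Cfsg.Agent.R2.T1.Art
open Cfsg.Agent.R2.T1.N7 (A7 r7 r7_eq prod_ne om_t om_42)
open Cfsg.Agent.H952.F4 (ev)

universe u v

def elsV : List (List ℕ) := [[], [0], [1], [1, 0]]

def datV : List (ℕ × List (ℕ × ℕ)) :=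
  [(0, []), (1, [(1, 2), (5, 6)]), (1, [(0, 1), (1, 3), (3, 5), (2, 4)]), (1, [(1, 2), (2, 4), (3, 5), (5, 6)])]

def elsD : List (List ℕ) := [[], [0], [1], [0, 0], [1, 0], [0, 1], [0, 0, 0], [1, 0, 0]]

def datD : List (ℕ × List (ℕ × ℕ)) :=
  [(0, []), (2, []), (1, [(0, 1), (1, 3), (3, 5), (2, 4)]), (1, [(1, 2), (5, 6)]), (1, [(1, 3), (3, 2)]), (1, []),
    (2, [(1, 3), (4, 5)]), (1, [(1, 2), (2, 4), (3, 5), (5, 6)])]

theorem chkG_V : chkG 7 [ly2, lv] elsV = true := by decide +kernel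

theorem chkC_V : chkC 7 [ly2, lv] elsV [] r7 datV = true := by decide +kernel

theorem cnt_V : (List.range 6).map (fun k => (datV.map Prod.fst).count k) = [1, 3, 0, 0, 0, 0] := by decide +kernel

theorem chkG_D : chkG 7 [l42, lv] elsD = true := by decide +kernel

theorem chkC_D : chkC 7 [l42, lv] elsD [] r7 datD = true := by decide +kernel

theorem cnt_D : (List.range 6).map (fun k => (datD.map Prod.fst).count k) = [1, 5, 2, 0, 0, 0] := by decide +kernel

variable {F : Type u} [Field F] [Finite F] {M : Type v} [AddCommGroup M] [Module F M] [FiniteDimensional F M]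
  (ρ : Representation F A7 M)

theorem dimV4 (h2 : (2 : F) ≠ 0) : 4 * (finrank F ↥(inv ρ (Tg 7 [ly2, lv])) : ℚ) = om ρ 1 + 3 * om ρ (P 7 lt) := by
  have h := dimC (n := 7) le_rfl chkG_V chkC_V (N := 4) rfl (K := 6) rfl
    (by simpa using prod_ne (F := F) (a := 2) (b := 0) (c := 0) h2 (Or.inl rfl) (Or.inl rfl)) cnt_V ρ
  simp only [r7_eq, Finset.sum_range_succ, Finset.sum_range_zero, List.getD_cons_zero, List.getD_cons_succ, P_nil] at h
  push_cast at h
  linear_combination h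

theorem dimD8 (h2 : (2 : F) ≠ 0) : 8 * (finrank F ↥(inv ρ (Tg 7 [l42, lv])) : ℚ) = om ρ 1 + 5 * om ρ (P 7 lt) +
    2 * om ρ (P 7 l42) := by
  have h := dimC (n := 7) le_rfl chkG_D chkC_D (N := 8) rfl (K := 6) rfl
    (by simpa using prod_ne (F := F) (a := 3) (b := 0) (c := 0) h2 (Or.inl rfl) (Or.inl rfl)) cnt_D ρ
  simp only [r7_eq, Finset.sum_range_succ, Finset.sum_range_zero, List.getD_cons_zero, List.getD_cons_succ, P_nil] at h
  push_cast at h
  linear_combination h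

theorem dimsV (h2 : (2 : F) ≠ 0) :
    2 * finrank F ↥(inv ρ (Tg 7 [ly2, lv])) + finrank F M = 3 * ev (ρ (P 7 lt)) 1 ∧
      2 * finrank F ↥(inv ρ (Tg 7 [l42, lv])) + finrank F M = ev (ρ (P 7 l42)) 1 + 2 * ev (ρ (P 7 lt)) 1 := by
  have e1 := dimV4 ρ h2
  have e2 := dimD8 ρ h2
  rw [om_one, om_t] at e1 e2
  rw [om_42] at e2
  constructor
  · have : (2 * finrank F ↥(inv ρ (Tg 7 [ly2, lv])) + finrank F M : ℚ) = 3 * ev (ρ (P 7 lt)) 1 := by linear_combination e1 / 2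
    exact_mod_cast this
  · have : (2 * finrank F ↥(inv ρ (Tg 7 [l42, lv])) + finrank F M : ℚ) = ev (ρ (P 7 l42)) 1 + 2 * ev (ρ (P 7 lt)) 1 := by
      linear_combination e2 / 4
    exact_mod_cast this

end Cfsg.Agent.R2.T1.N7H
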