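import Cfsg.Agent.R2.T1.N7.H.One

/-!
# S5929, `n = 7`, `p = 3`: the inequality for the action of `S₃` (helper23)

`s3_ineq` : `3 dim M^{D₈} ≤ dim M^{V₄} + 3 dim M^{S₄}` for a self-dual module in characteristic 3.
-/

set_option autoImplicit false
set_option maxRecDepth 100000
set_option linter.unusedSectionVars false

namespace Cfsg.Agent.R2.T1.N7H

open Module
open Cfsg.Agent.R2.T1.Odd
open Cfsg.Agent.R2.T1.N7 (A7 mem_inv_Tg)
open Cfsg.Agent.H952.F4 (ev)

/-! ### linear algebra -/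

section lin
variable {F M : Type*} [Field F] [AddCommGroup M] [Module F M] [FiniteDimensional F M]

theorem finrank_map_ker (Q : Submodule F M) {M' : Type*} [AddCommGroup M'] [Module F M'] (δ : M →ₗ[F] M') :
    finrank F ↥(Q.map δ) + finrank F ↥(Q ⊓ LinearMap.ker δ : Submodule F M) = finrank F ↥Q := by
  have h1 := LinearMap.finrank_range_add_finrank_ker (δ.domRestrict Q)
  rw [LinearMap.range_domRestrict, LinearMap.ker_domRestrict, ← Submodule.finrank_map_subtype_eq,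
    Submodule.map_comap_subtype] at h1
  exact h1

/-- `P` and `N` are exchanged by `δ`, `δ³ = 0` on `N`; `B u (δ w) = 0` for all `w ∈ N` implies `δ u = 0` -/
theorem lin_ineq (P N : Submodule F M) (δ : Module.End F M) (hP : ∀ u ∈ P, δ u ∈ N) (hN : ∀ u ∈ N, δ u ∈ P)
    (h3 : ∀ u ∈ N, δ (δ (δ u)) = 0) (B : LinearMap.BilinForm F M)
    (hB : ∀ u ∈ P, (∀ w ∈ N, B u (δ w) = 0) → δ u = 0) :
    2 * finrank F ↥P ≤ finrank F ↥N + 3 * finrank F ↥(P ⊓ LinearMap.ker δ : Submodule F M) := by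
  have hAP : N.map δ ≤ P := by
    rw [Submodule.map_le_iff_le_comap]
    exact fun u hu => hN u hu
  have e1 := finrank_map_ker N δ
  have e2 := finrank_map_ker (N.map δ) δ
  have e3 : finrank F ↥(N.map δ ⊓ LinearMap.ker δ : Submodule F M) ≤ finrank F ↥(P ⊓ LinearMap.ker δ : Submodule F M) :=
    Submodule.finrank_mono (inf_le_inf_right _ hAP)
  have e4 : finrank F ↥((N.map δ).map δ) ≤ finrank F ↥(N ⊓ LinearMap.ker δ : Submodule F M) := by
    refine Submodule.finrank_mono ?_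
    rintro _ ⟨_, ⟨u, hu, rfl⟩, rfl⟩
    exact ⟨hP _ (hN u hu), LinearMap.mem_ker.2 (h3 u hu)⟩
  have e5 : finrank F ↥P ≤ finrank F ↥(N.map δ) + finrank F ↥(P ⊓ LinearMap.ker δ : Submodule F M) := by
    have h1 := finrank_map_ker P ((N.map δ).subtype.dualMap ∘ₗ B)
    have h2 : finrank F ↥(P.map ((N.map δ).subtype.dualMap ∘ₗ B)) ≤ finrank F ↥(N.map δ) := by
      have := Submodule.finrank_le (P.map ((N.map δ).subtype.dualMap ∘ₗ B))
      rwa [Subspace.dual_finrank_eq] at this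
    have h4 : finrank F ↥(P ⊓ LinearMap.ker ((N.map δ).subtype.dualMap ∘ₗ B) : Submodule F M) ≤
        finrank F ↥(P ⊓ LinearMap.ker δ : Submodule F M) := by
      refine Submodule.finrank_mono ?_
      rintro u ⟨hu, hu'⟩
      refine ⟨hu, LinearMap.mem_ker.2 (hB u hu fun w hw => ?_)⟩
      have h5 := LinearMap.mem_ker.1 hu'
      exact LinearMap.congr_fun h5 ⟨δ w, Submodule.mem_map_of_mem hw⟩
    omega
  omega

end lin

/-! ### the application -/

variable {F M : Type*} [Field F] [AddCommGroup M] [Module F M] {ρ : Representation F A7 M}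

theorem y_mem {v : M} (hv : v ∈ WV ρ) : ρ (P 7 l42) v ∈ WV ρ := by
  obtain ⟨h1, h2⟩ := mem_WV.1 hv
  refine mem_WV.2 ⟨?_, ?_⟩
  · rw [rho_rel (a := ly2) (b := l42) (c := l42) (d := ly2) (by decide) (by decide) (by decide) (by decide)
      (by decide) v, h1]
  · rw [rho_rel (a := lv) (b := l42) (c := l42) (d := ly2 ++ lv) (by decide) (by decide) (by decide) (by decide)
      (by decide) v, P_append (m := 7) le_rfl (by decide) (by decide), map_mul, Module.End.mul_apply, h2, h1]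

theorem yy {v : M} : ρ (P 7 l42) (ρ (P 7 l42) v) = ρ (P 7 ly2) v := by
  rw [rho_rel (a := l42) (b := l42) (c := ly2) (d := []) (by decide) (by decide) (by decide) (by decide)
      (by decide) v, rho_nil]

theorem y_r {v : M} (hv : v ∈ WV ρ) : ρ (P 7 l42) (ρ (P 7 lr) v) = ρ (P 7 lr) (ρ (P 7 lr) (ρ (P 7 l42) v)) := by
  obtain ⟨h1, h2⟩ := mem_WV.1 hv
  have h := rho_rel (ρ := ρ) (a := l42) (b := lr) (c := lr ++ lr) (d := l42 ++ (ly2 ++ lv)) (by decide) (by decide)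
    (by decide) (by decide) (by decide) v
  rw [h, P_append (m := 7) le_rfl (by decide) (by decide), map_mul, Module.End.mul_apply,
    P_append (m := 7) le_rfl (l := l42) (by decide) (by decide), map_mul, Module.End.mul_apply,
    P_append (m := 7) le_rfl (l := ly2) (by decide) (by decide), map_mul, Module.End.mul_apply, h2, h1]

theorem y_r2 {v : M} (hv : v ∈ WV ρ) : ρ (P 7 l42) (ρ (P 7 lr) (ρ (P 7 lr) v)) = ρ (P 7 lr) (ρ (P 7 l42) v) := by
  rw [y_r (r_mem hv), y_r hv, r_cube]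

variable (ρ) in
/-- the two eigenspaces of `y` on the fixed points of the Klein four-group -/
noncomputable def WN : Submodule F M := WV ρ ⊓ LinearMap.ker (ρ (P 7 l42) + 1)

theorem mem_WN {v : M} : v ∈ WN ρ ↔ v ∈ WV ρ ∧ ρ (P 7 l42) v = -v := by
  rw [WN, Submodule.mem_inf, LinearMap.mem_ker, LinearMap.add_apply, Module.End.one_apply, add_eq_zero_iff_eq_neg]

variable (ρ) in
/-- the fixed points of `D₈` -/
noncomputable abbrev WD : Submodule F M := inv ρ (Tg 7 [l42, lv])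

theorem mem_WD {v : M} : v ∈ WD ρ ↔ v ∈ WV ρ ∧ ρ (P 7 l42) v = v := by
  constructor
  · intro h
    have h1 : ρ (P 7 l42) v = v := h _ (P_getD_mem (gens := [l42, lv]) 0)
    have h2 : ρ (P 7 lv) v = v := h _ (P_getD_mem (gens := [l42, lv]) 1)
    exact ⟨mem_WV.2 ⟨by rw [← yy, h1, h1], h2⟩, h1⟩
  · rintro ⟨h1, h2⟩
    have h4 := (mem_WV.1 h1).2
    refine mem_inv_Tg fun g hg => ?_
    simp only [List.mem_cons, List.not_mem_nil, or_false] at hg
    rcases hg with rfl | rfl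
    · exact h2
    · exact h4

variable (ρ) in
/-- `r - r⁻¹` -/
noncomputable def dlt : Module.End F M := ρ (P 7 lr) - ρ (P 7 lr) * ρ (P 7 lr)

theorem dlt_apply (v : M) : dlt ρ v = ρ (P 7 lr) v - ρ (P 7 lr) (ρ (P 7 lr) v) := rfl

theorem dlt_mem {v : M} (hv : v ∈ WV ρ) : dlt ρ v ∈ WV ρ := by
  rw [dlt_apply]
  exact sub_mem (r_mem hv) (r_mem (r_mem hv))

theorem dlt_D {v : M} (hv : v ∈ WD ρ) : dlt ρ v ∈ WN ρ := by
  obtain ⟨h1, h2⟩ := mem_WD.1 hv
  refine mem_WN.2 ⟨dlt_mem h1, ?_⟩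
  rw [dlt_apply, map_sub, y_r h1, y_r2 h1, h2, neg_sub]

theorem dlt_N {v : M} (hv : v ∈ WN ρ) : dlt ρ v ∈ WD ρ := by
  obtain ⟨h1, h2⟩ := mem_WN.1 hv
  refine mem_WD.2 ⟨dlt_mem h1, ?_⟩
  rw [dlt_apply, map_sub, y_r h1, y_r2 h1, h2, map_neg, map_neg]
  abel

variable (h3 : (3 : F) = 0)

include h3 in
theorem dlt_cube (v : M) : dlt ρ (dlt ρ (dlt ρ v)) = 0 := by
  simp only [dlt_apply, map_sub, r_cube]
  have : (3 : F) • (ρ (P 7 lr) (ρ (P 7 lr) v) - ρ (P 7 lr) v) = 0 := by rw [h3, zero_smul]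
  rw [← this]
  module

variable (B : LinearMap.BilinForm F M) (hinv : ∀ g v w, B (ρ g v) (ρ g w) = B v w)

include hinv in
theorem B_dlt (u w : M) : B u (dlt ρ w) = -(B (dlt ρ u) w) := by
  have e1 : B u (ρ (P 7 lr) w) = B (ρ (P 7 lr) (ρ (P 7 lr) u)) w := by
    rw [← hinv (P 7 lr), ← hinv (P 7 lr), r_cube]
  have e2 : B u (ρ (P 7 lr) (ρ (P 7 lr) w)) = B (ρ (P 7 lr) u) w := by
    rw [← hinv (P 7 lr), r_cube]
  rw [dlt_apply, dlt_apply, map_sub, e1, e2, map_sub, LinearMap.sub_apply]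
  ring

include hinv in
/-- the projection onto `WN` is self-adjoint -/
theorem B_proj (h2 : (2 : F) ≠ 0) {s : M} (hs : s ∈ WN ρ) (h : ∀ w ∈ WN ρ, B s w = 0) (m : M) : B s m = 0 := by
  obtain ⟨hW, hy⟩ := mem_WN.1 hs
  obtain ⟨h1, h4⟩ := mem_WV.1 hW
  have i1 : ∀ w, B s (ρ (P 7 ly2) w) = B s w := fun w => by
    conv_lhs => rw [← h1]
    exact hinv _ _ _
  have i2 : ∀ w, B s (ρ (P 7 lv) w) = B s w := fun w => by
    conv_lhs => rw [← h4]
    exact hinv _ _ _
  have i3 : ∀ w, B s (ρ (P 7 l42) w) = -(B s w) := fun w => by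
    have h5 : s = -(ρ (P 7 l42) s) := by rw [hy, neg_neg]
    conv_lhs => rw [h5]
    rw [map_neg, LinearMap.neg_apply, hinv]
  have hm : O ρ eV m - ρ (P 7 l42) (O ρ eV m) ∈ WN ρ := by
    refine mem_WN.2 ⟨sub_mem (eV_mem m) (y_mem (eV_mem m)), ?_⟩
    rw [map_sub, yy, (mem_WV.1 (eV_mem m)).1, neg_sub]
  have h5 := h _ hm
  rw [map_sub, i3, eV_op, map_add, i1, map_add, i2] at h5
  have h6 : (2 : F) * (2 * (2 * B s m)) = 0 := by linear_combination h5
  rcases mul_eq_zero.1 h6 with h7 | h7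
  · exact absurd h7 h2
  · rcases mul_eq_zero.1 h7 with h8 | h8
    · exact absurd h8 h2
    · exact (mul_eq_zero.1 h8).resolve_left h2

include h3 hinv in
/-- **`3 dim M^{D₈} ≤ dim M^{V₄} + 3 dim M^{S₄}`.** -/
theorem s3_ineq [FiniteDimensional F M] (hB : ∀ v, (∀ w, B v w = 0) → v = 0) :
    3 * finrank F ↥(WD ρ) ≤ finrank F ↥(WV ρ) + 3 * finrank F ↥(WS ρ) := by
  have h2 : (2 : F) ≠ 0 := by
    intro h2
    have : (1 : F) = 0 := by linear_combination h3 - h2
    exact one_ne_zero this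
  have h := lin_ineq (WD ρ) (WN ρ) (dlt ρ) (fun u hu => dlt_D hu) (fun u hu => dlt_N hu)
    (fun u _ => dlt_cube h3 u) B (fun u hu hw => hB _ fun m => B_proj B hinv h2 (dlt_D hu) (fun w hw' => by
      have := hw w hw'
      rw [B_dlt B hinv, neg_eq_zero] at this
      exact this) m)
  have h4 : finrank F ↥(WD ρ ⊓ LinearMap.ker (dlt ρ) : Submodule F M) ≤ finrank F ↥(WS ρ) := by
    refine Submodule.finrank_mono ?_
    rintro u ⟨hu, hu'⟩
    have h5 := LinearMap.mem_ker.1 hu'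
    rw [dlt_apply, sub_eq_zero] at h5
    refine mem_WS.2 ⟨(mem_WD.1 hu).2, ?_⟩
    have h6 := congrArg (fun v => ρ (P 7 lr) (ρ (P 7 lr) v)) h5
    simp only [r_cube] at h6
    exact h6.symm
  have h5 : finrank F ↥(WD ρ) + finrank F ↥(WN ρ) ≤ finrank F ↥(WV ρ) := by
    have h6 := Submodule.finrank_sup_add_finrank_inf_eq (WD ρ) (WN ρ)
    have h7 : (WD ρ ⊓ WN ρ : Submodule F M) = ⊥ := by
      rw [eq_bot_iff]
      rintro v ⟨hv, hv'⟩
      have e1 := (mem_WD.1 hv).2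
      have e2 := (mem_WN.1 hv').2
      rw [e1] at e2
      have e3 : (2 : F) • v = 0 := by
        rw [two_smul]
        nth_rewrite 1 [e2]
        exact neg_add_cancel v
      exact (Submodule.mem_bot F).2 ((smul_eq_zero.1 e3).resolve_left h2)
    have h8 : finrank F ↥(WD ρ ⊔ WN ρ : Submodule F M) ≤ finrank F ↥(WV ρ) :=
      Submodule.finrank_mono (sup_le (fun v hv => (mem_WD.1 hv).1) fun v hv => (mem_WN.1 hv).1)
    rw [h7, finrank_bot] at h6
    omega
  omega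

end Cfsg.Agent.R2.T1.N7H
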