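import Cfsg.Agent.R2.T1.N7.H.Two
import Cfsg.Agent.R2.T1.N7.H.S3
import Cfsg.Agent.R2.T1.N7.H.DimV
import Cfsg.Agent.R2.T1.N7.H.Cj

/-!
# S5929, `n = 7`, `p = 3`: fixed vectors of `A₇` (helper23)

`main` : in characteristic 3, a self-dual module `M` of `A₇` with `d₄ = d₅` and `dim M < 3 d₄ + 2 d₇` has nonzero fixed vectors.
-/

set_option autoImplicit false

namespace Cfsg.Agent.R2.T1.N7H

open Module
open Cfsg.Agent.R2.T1.Odd
open Cfsg.Agent.R2.T1.N7 (A7)
open Cfsg.Agent.H952.F4 (ev)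

universe u v

variable {F : Type u} [Field F] [Finite F] {M : Type v} [AddCommGroup M] [Module F M] [FiniteDimensional F M]
  (ρ : Representation F A7 M)

/-- **Fixed vectors of `A₇` in characteristic 3.** -/
theorem main (h3 : (3 : F) = 0) (B : LinearMap.BilinForm F M) (hB : ∀ v, (∀ w, B v w = 0) → v = 0)
    (hinv : ∀ g v w, B (ρ g v) (ρ g w) = B v w) {x y z : A7} (hx : orderOf x = 5) (hy : orderOf y = 4)
    (hz : orderOf z = 7) (h45 : ev (ρ y) 1 = ev (ρ x) 1)
    (hn : finrank F M < 3 * ev (ρ y) 1 + 2 * ev (ρ z) 1) : Representation.invariants ρ ≠ ⊥ := by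
  intro h0
  have hx' := ev5 ρ hx
  have hy' := ev4 ρ hy
  have hz' := ev7 ρ hz
  have h45' : ev (ρ (P 7 l42)) 1 = ev (ρ (P 7 N7.l5)) 1 := by rw [← hx', ← hy', h45]
  have h2 : (2 : F) ≠ 0 := by
    intro h2
    have : (1 : F) = 0 := by linear_combination h3 - h2
    exact one_ne_zero this
  have hL : ∀ v : M, ρ (P 7 l42) v = v → ρ (P 7 lc) v = v → v = 0 := by
    intro v h1 h4
    have h5 : v ∈ Representation.invariants ρ := (Representation.mem_invariants ρ v).2 fun g =>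
      fixed_all h3 h45' h1 h4 g
    rw [h0] at h5
    exact (Submodule.mem_bot F).1 h5
  have e1 := one_ineq h3 hL
  have e2 := s3_ineq h3 B hinv hB
  obtain ⟨e3, e4'⟩ := dimsV ρ h2
  unfold WS WV at e1
  unfold WS WV WD at e2
  rw [hy', hz'] at hn
  omega

end Cfsg.Agent.R2.T1.N7H
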