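import Cfsg.Agent.R2.T1.N7.H.Dat

/-!
# S5929, `n = 7`, `p = 3`: the first inequality for `L₂(7)` (helper23)

`one_ineq` : if `M` has no vectors fixed by `l42, lc`, then `3 dim M^{S₄} + dim M^{7} ≤ dim M^{V₄}`.
-/

set_option autoImplicit false
set_option maxRecDepth 100000
set_option linter.unusedSectionVars false

namespace Cfsg.Agent.R2.T1.N7H

open Module
open Cfsg.Agent.R2.T1.Odd
open Cfsg.Agent.R2.T1.N7 (A7 mem_inv_Tg)
open Cfsg.Agent.H952.F4 (ev)

variable {F M : Type*} [Field F] [AddCommGroup M] [Module F M] (ρ : Representation F A7 M)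

/-- the operator of an expression -/
noncomputable abbrev O (e : Ex) : Module.End F M := e.op (sg ρ g4)

variable {ρ}

theorem O_mul (a b : Ex) (v : M) : O ρ (.mul a b) v = O ρ a (O ρ b v) := rfl

theorem O_add (a b : Ex) (v : M) : O ρ (.add a b) v = O ρ a v + O ρ b v := rfl

theorem O_neg (a : Ex) (v : M) : O ρ (.neg a) v = -(O ρ a v) := rfl

theorem O_one (v : M) : O ρ .one v = v := rfl

theorem vl_g4 : g4.all (vl 7) = true := by decide

theorem O_wd : ∀ l : List ℕ, O ρ (.wdE l) = ρ (P 7 (wd g4 l)) := by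
  intro l
  induction l with
  | nil =>
    rw [wd_nil, P_nil, map_one]
    rfl
  | cons a l ih =>
    rw [wd_cons, P_append (m := 7) le_rfl (vl_getD vl_g4 a) (vl_wd vl_g4 l), map_mul, ← ih]
    cases l with
    | nil => show sg ρ g4 a = sg ρ g4 a * 1; rw [mul_one]
    | cons b l => rfl

theorem P_rel {a b : List (ℕ × ℕ)} (ha : vl 7 a = true) (hb : vl 7 b = true) (h : cd 7 a = cd 7 b) :
    P 7 a = P 7 b := (P_eq_iff (n := 7) (m := 7) le_rfl ha hb).2 h

theorem rho_rel {a b c d : List (ℕ × ℕ)} (ha : vl 7 a = true) (hb : vl 7 b = true) (hc : vl 7 c = true) (hd : vl 7 d = true)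
    (h : cd 7 (a ++ b) = cd 7 (c ++ d)) (v : M) : ρ (P 7 a) (ρ (P 7 b) v) = ρ (P 7 c) (ρ (P 7 d) v) := by
  have h1 := P_rel (vl_append ha hb) (vl_append hc hd) h
  rw [P_append (m := 7) le_rfl ha hb, P_append (m := 7) le_rfl hc hd] at h1
  rw [← Module.End.mul_apply, ← map_mul, h1, map_mul, Module.End.mul_apply]

theorem rho_nil (v : M) : ρ (P 7 []) v = v := by rw [P_nil, map_one]; rfl

/-! ### the Klein four-group -/

theorem eV_op (v : M) : O ρ eV v = (v + ρ (P 7 lv) v) + ρ (P 7 ly2) (v + ρ (P 7 lv) v) := by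
  show O ρ (.mul (.add .one (.wdE [1, 1])) (.add .one (.wdE [3, 1, 1, 3, 3]))) v = _
  rw [O_mul, O_add, O_add, O_one, O_one, O_wd, O_wd]
  rfl

theorem y2_eV (v : M) : ρ (P 7 ly2) (O ρ eV v) = O ρ eV v := by
  rw [eV_op, map_add]
  have h : ∀ w : M, ρ (P 7 ly2) (ρ (P 7 ly2) w) = w := fun w => by
    rw [rho_rel (c := []) (d := []) (by decide) (by decide) (by decide) (by decide) (by decide) w, rho_nil, rho_nil]
  rw [h, add_comm]

theorem v_eV (v : M) : ρ (P 7 lv) (O ρ eV v) = O ρ eV v := by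
  rw [eV_op]
  have h : ∀ w : M, ρ (P 7 lv) (ρ (P 7 lv) w) = w := fun w => by
    rw [rho_rel (c := []) (d := []) (by decide) (by decide) (by decide) (by decide) (by decide) w, rho_nil, rho_nil]
  have h' : ∀ w : M, ρ (P 7 lv) (ρ (P 7 ly2) w) = ρ (P 7 ly2) (ρ (P 7 lv) w) := fun w =>
    rho_rel (by decide) (by decide) (by decide) (by decide) (by decide) w
  rw [map_add, h', map_add, h, add_comm (ρ (P 7 lv) v) v]

variable (ρ) in
/-- the fixed points of the Klein four-group -/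
noncomputable abbrev WV : Submodule F M := inv ρ (Tg 7 [ly2, lv])

variable (ρ) in
/-- the fixed points of `S₄` -/
noncomputable abbrev WS : Submodule F M := inv ρ (Tg 7 [l42, lr])

theorem mem_WV {v : M} : v ∈ WV ρ ↔ ρ (P 7 ly2) v = v ∧ ρ (P 7 lv) v = v := by
  constructor
  · intro h
    exact ⟨h _ (P_getD_mem (gens := [ly2, lv]) 0), h _ (P_getD_mem (gens := [ly2, lv]) 1)⟩
  · rintro ⟨h1, h2⟩
    refine mem_inv_Tg fun g hg => ?_
    simp only [List.mem_cons, List.not_mem_nil, or_false] at hg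
    rcases hg with rfl | rfl
    · exact h1
    · exact h2

theorem mem_WS {v : M} : v ∈ WS ρ ↔ ρ (P 7 l42) v = v ∧ ρ (P 7 lr) v = v := by
  constructor
  · intro h
    exact ⟨h _ (P_getD_mem (gens := [l42, lr]) 0), h _ (P_getD_mem (gens := [l42, lr]) 1)⟩
  · rintro ⟨h1, h2⟩
    refine mem_inv_Tg fun g hg => ?_
    simp only [List.mem_cons, List.not_mem_nil, or_false] at hg
    rcases hg with rfl | rfl
    · exact h1
    · exact h2

theorem eV_mem (v : M) : O ρ eV v ∈ WV ρ := mem_WV.2 ⟨y2_eV v, v_eV v⟩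

theorem r_mem {v : M} (hv : v ∈ WV ρ) : ρ (P 7 lr) v ∈ WV ρ := by
  obtain ⟨h1, h2⟩ := mem_WV.1 hv
  refine mem_WV.2 ⟨?_, ?_⟩
  · rw [rho_rel (a := ly2) (b := lr) (c := lr) (d := ly2 ++ lv) (by decide) (by decide) (by decide) (by decide)
      (by decide) v, P_append (m := 7) le_rfl (by decide) (by decide), map_mul, Module.End.mul_apply, h2, h1]
  · rw [rho_rel (a := lv) (b := lr) (c := lr) (d := ly2) (by decide) (by decide) (by decide) (by decide)
      (by decide) v, h1]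

theorem r_cube (v : M) : ρ (P 7 lr) (ρ (P 7 lr) (ρ (P 7 lr) v)) = v := by
  rw [← Module.End.mul_apply, ← map_mul, ← P_append (m := 7) le_rfl (by decide) (by decide),
    rho_rel (a := lr ++ lr) (b := lr) (c := []) (d := []) (by decide) (by decide) (by decide) (by decide)
      (by decide) v, rho_nil, rho_nil]

/-! ### the certificates -/

variable (h3 : (3 : F) = 0)

include h3 in
/-- `e₇ e_V κ = 1` on the fixed points of `lc` -/
theorem e7_eV {w : M} (hw : ρ (P 7 lc) w = w) : O ρ e7 (O ρ eV (O ρ kap w)) = w := by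
  have hf := fam_of (ρ := ρ) (gens := g4) chk24 perm24 (w := w) (by
    intro b hb
    simp only [List.mem_cons, List.not_mem_nil, or_false] at hb
    subst hb
    exact hw)
  have h := (act_op h3 hf (.mul e7 (.mul eV kap)) (by decide) (dl 24 0) (length_dl _ _)).2
  rw [c24, Phi_dl (by norm_num)] at h
  have h0 : ρ (P 7 (wd g4 (W24.getD 0 []))) w = w := rho_nil w
  rw [h0] at h
  exact h.symm

section seven
variable {u : M} (hu : u ∈ WS ρ)

/-- the family of seven vectors -/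
noncomputable def V7 (ρ : Representation F A7 M) (u : M) (i : ℕ) : M := ρ (P 7 (wd g4 (W7.getD i []))) u

theorem V7_zero : V7 ρ u 0 = u := rho_nil u

include hu in
theorem fam7 : IsFam (sg ρ g4) [1, 2, 3] 7 q7 (V7 ρ u) :=
  fam_of (ρ := ρ) (gens := g4) chk7 perm7 (w := u) (by
    intro b hb
    simp only [List.mem_cons, List.not_mem_nil, or_false] at hb
    rcases hb with rfl | rfl
    · exact (mem_WS.1 hu).1
    · exact (mem_WS.1 hu).2)

theorem ones_gen : (Ex.gen 1).act q7 [1, 1, 1, 1, 1, 1, 1] = [1, 1, 1, 1, 1, 1, 1] ∧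
    (Ex.gen 2).act q7 [1, 1, 1, 1, 1, 1, 1] = [1, 1, 1, 1, 1, 1, 1] := by decide +kernel

variable (hL : ∀ v : M, ρ (P 7 l42) v = v → ρ (P 7 lc) v = v → v = 0)

include h3 hu hL in
theorem ones_zero : Phi F 7 (V7 ρ u) [1, 1, 1, 1, 1, 1, 1] = 0 := by
  apply hL
  · have h := (act_op h3 (fam7 hu) (.gen 1) (by decide) [1, 1, 1, 1, 1, 1, 1] rfl).2
    rw [ones_gen.1] at h
    exact h.symm
  · have h := (act_op h3 (fam7 hu) (.gen 2) (by decide) [1, 1, 1, 1, 1, 1, 1] rfl).2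
    rw [ones_gen.2] at h
    exact h.symm

include h3 hu hL in
theorem sum7 : V7 ρ u 0 + V7 ρ u 1 + V7 ρ u 2 + V7 ρ u 3 + V7 ρ u 4 + V7 ρ u 5 + V7 ρ u 6 = 0 := by
  have h := ones_zero h3 hu hL
  simpa [Phi, Finset.sum_range_succ] using h

include h3 hu hL in
theorem get7 (e : Ex) (he : e.ok [1, 2, 3] = true) {k : ℕ} (h : e.act q7 (dl 7 0) = [k, k, k, k, k, k, k]) :
    O ρ e u = 0 := by
  have h1 := (act_op h3 (fam7 hu) e he (dl 7 0) (length_dl _ _)).2
  rw [h, Phi_dl (by norm_num), V7_zero] at h1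
  rw [O, ← h1]
  have h2 := sum7 h3 hu hL
  have h4 : Phi F 7 (V7 ρ u) [k, k, k, k, k, k, k] = ((k : ℕ) : F) • (V7 ρ u 0 + V7 ρ u 1 + V7 ρ u 2 + V7 ρ u 3 +
      V7 ρ u 4 + V7 ρ u 5 + V7 ρ u 6) := by
    simp only [Phi, Finset.sum_range_succ, Finset.sum_range_zero, List.getD_cons_zero, List.getD_cons_succ, smul_add,
      zero_add]
  rw [h4, h2, smul_zero]

include h3 hu hL in
theorem bb_w1 : O ρ bb (O ρ w1 u) = u := by
  have h1 := (act_op h3 (fam7 hu) (.mul bb w1) (by decide) (dl 7 0) (length_dl _ _)).2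
  rw [c7b, Phi_dl (by norm_num), V7_zero] at h1
  have h2 := sum7 h3 hu hL
  have h4 : Phi F 7 (V7 ρ u) [0, 2, 2, 2, 2, 2, 2] = (2 : F) • (V7 ρ u 0 + V7 ρ u 1 + V7 ρ u 2 + V7 ρ u 3 +
      V7 ρ u 4 + V7 ρ u 5 + V7 ρ u 6) + V7 ρ u 0 - (3 : F) • V7 ρ u 0 := by
    simp only [Phi, Finset.sum_range_succ, Finset.sum_range_zero, List.getD_cons_zero, List.getD_cons_succ]
    push_cast
    module
  rw [h4, h2, h3, smul_zero, zero_smul, zero_add, sub_zero, V7_zero] at h1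
  exact h1.symm

end seven

/-! ### the inequality -/

variable (ρ) in
/-- the map `(M^{S₄})³ × M^{7} → M^{V₄}` -/
noncomputable def Psi : (↥(WS ρ) × ↥(WS ρ) × ↥(WS ρ) × ↥(Module.End.eigenspace (ρ (P 7 lc)) 1)) →ₗ[F] M :=
  LinearMap.coprod ((O ρ w1) ∘ₗ (WS ρ).subtype)
    (LinearMap.coprod ((ρ (P 7 lr)) ∘ₗ (O ρ w1) ∘ₗ (WS ρ).subtype)
      (LinearMap.coprod ((ρ (P 7 lr)) ∘ₗ (ρ (P 7 lr)) ∘ₗ (O ρ w1) ∘ₗ (WS ρ).subtype)
        ((O ρ eV) ∘ₗ (O ρ kap) ∘ₗ (Module.End.eigenspace (ρ (P 7 lc)) 1).subtype)))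

theorem Psi_apply (a b c : ↥(WS ρ)) (w : ↥(Module.End.eigenspace (ρ (P 7 lc)) 1)) : Psi ρ (a, b, c, w) =
    O ρ w1 a + (ρ (P 7 lr) (O ρ w1 b) + (ρ (P 7 lr) (ρ (P 7 lr) (O ρ w1 c)) + O ρ eV (O ρ kap w))) := rfl

theorem w1_mem (u : M) : O ρ w1 u ∈ WV ρ := eV_mem _

theorem Psi_mem (x : ↥(WS ρ) × ↥(WS ρ) × ↥(WS ρ) × ↥(Module.End.eigenspace (ρ (P 7 lc)) 1)) : Psi ρ x ∈ WV ρ := by
  obtain ⟨a, b, c, w⟩ := x
  rw [Psi_apply]
  exact add_mem (w1_mem _) (add_mem (r_mem (w1_mem _)) (add_mem (r_mem (r_mem (w1_mem _))) (eV_mem _)))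

include h3 in
theorem Psi_inj (hL : ∀ v : M, ρ (P 7 l42) v = v → ρ (P 7 lc) v = v → v = 0) : Function.Injective (Psi ρ) := by
  rw [← LinearMap.ker_eq_bot, LinearMap.ker_eq_bot']
  rintro ⟨a, b, c, w⟩ h
  rw [Psi_apply] at h
  have hw : ρ (P 7 lc) (w : M) = w := by
    have := Module.End.mem_eigenspace_iff.1 w.2
    rwa [one_smul] at this
  have hg : ∀ v : M, O ρ (.gen 3) v = ρ (P 7 lr) v := fun v => rfl
  have e1 : ∀ u : ↥(WS ρ), O ρ e7 (O ρ w1 u) = 0 := fun u =>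
    get7 h3 u.2 hL (.mul e7 w1) (by decide) c7a
  have e2 : ∀ u : ↥(WS ρ), O ρ e7 (ρ (P 7 lr) (O ρ w1 u)) = 0 := fun u =>
    get7 h3 u.2 hL (.mul e7 (.mul (.gen 3) w1)) (by decide) c7e
  have e3 : ∀ u : ↥(WS ρ), O ρ e7 (ρ (P 7 lr) (ρ (P 7 lr) (O ρ w1 u))) = 0 := fun u =>
    get7 h3 u.2 hL (.mul e7 (.mul (.gen 3) (.mul (.gen 3) w1))) (by decide) c7f
  have f2 : ∀ u : ↥(WS ρ), O ρ bb (ρ (P 7 lr) (O ρ w1 u)) = 0 := fun u =>
    get7 h3 u.2 hL (.mul bb (.mul (.gen 3) w1)) (by decide) c7c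
  have f3 : ∀ u : ↥(WS ρ), O ρ bb (ρ (P 7 lr) (ρ (P 7 lr) (O ρ w1 u))) = 0 := fun u =>
    get7 h3 u.2 hL (.mul bb (.mul (.gen 3) (.mul (.gen 3) w1))) (by decide) c7d
  have f1 : ∀ u : ↥(WS ρ), O ρ bb (O ρ w1 u) = u := fun u => bb_w1 h3 u.2 hL
  have hw0 : (w : M) = 0 := by
    have h1 := congrArg (O ρ e7) h
    rw [map_add, map_add, map_add, map_zero, e1, e2, e3, e7_eV h3 hw, zero_add, zero_add, zero_add] at h1
    exact h1
  rw [hw0, map_zero, map_zero, add_zero] at h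
  have ha : (a : M) = 0 := by
    have h1 := congrArg (O ρ bb) h
    rw [map_add, map_add, map_zero, f1, f2, f3, add_zero, add_zero] at h1
    exact h1
  rw [ha, map_zero, zero_add, ← map_add] at h
  have h' : O ρ w1 (b : M) + ρ (P 7 lr) (O ρ w1 c) = 0 := by
    have h1 := congrArg (fun v => ρ (P 7 lr) (ρ (P 7 lr) v)) h
    simp only [map_zero] at h1
    rwa [r_cube] at h1
  have hb : (b : M) = 0 := by
    have h1 := congrArg (O ρ bb) h'
    rw [map_add, map_zero, f1, f2, add_zero] at h1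
    exact h1
  rw [hb, map_zero, zero_add] at h'
  have h'' : O ρ w1 (c : M) = 0 := by
    have h1 := congrArg (fun v => ρ (P 7 lr) (ρ (P 7 lr) v)) h'
    simp only [map_zero] at h1
    rwa [r_cube] at h1
  have hc : (c : M) = 0 := by
    rw [← f1 c, h'', map_zero]
  have ea : a = 0 := Subtype.ext ha
  have eb : b = 0 := Subtype.ext hb
  have ec : c = 0 := Subtype.ext hc
  have ew : w = 0 := Subtype.ext hw0
  rw [ea, eb, ec, ew]
  rfl

include h3 in
/-- **`3 dim M^{S₄} + dim M^{7} ≤ dim M^{V₄}`.** -/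
theorem one_ineq [FiniteDimensional F M] (hL : ∀ v : M, ρ (P 7 l42) v = v → ρ (P 7 lc) v = v → v = 0) :
    3 * finrank F ↥(WS ρ) + ev (ρ (P 7 lc)) 1 ≤ finrank F ↥(WV ρ) := by
  have h1 := LinearMap.finrank_le_finrank_of_injective (f := (Psi ρ).codRestrict (WV ρ) Psi_mem)
    (fun x y hxy => Psi_inj h3 hL (congrArg Subtype.val hxy))
  rw [Module.finrank_prod, Module.finrank_prod, Module.finrank_prod] at h1
  unfold ev
  omega

end Cfsg.Agent.R2.T1.N7H
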