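import Cfsg.Agent.R2.T1.N7.H.One
import Cfsg.Agent.H952.F4.Gen

/-!
# S5929, `n = 7`, `p = 3`: the vectors fixed by `L₂(7)` (helper23)

`fixed_all` : if `dim M^{l5} = dim M^{l42}`, then every vector fixed by `l42, lc` is fixed by `A₇`.
-/

set_option autoImplicit false
set_option maxRecDepth 100000
set_option linter.unusedSectionVars false

namespace Cfsg.Agent.R2.T1.N7H

open Module Equiv Equiv.Perm
open Cfsg.Agent.R2.T1.Odd
open Cfsg.Agent.R2.T1.N7 (A7 mem_inv_Tg)
open Cfsg.Agent.H952.F4 (ev)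

variable {F M : Type*} [Field F] [AddCommGroup M] [Module F M] {ρ : Representation F A7 M} (h3 : (3 : F) = 0)

theorem e4_op (v : M) : O ρ e4 v = v + ρ (P 7 l42) (v + ρ (P 7 l42) (v + ρ (P 7 l42) v)) := rfl

theorem y_four (v : M) : ρ (P 7 l42) (ρ (P 7 l42) (ρ (P 7 l42) (ρ (P 7 l42) v))) = v := by
  have h := rho_rel (ρ := ρ) (a := l42 ++ l42) (b := l42 ++ l42) (c := []) (d := []) (by decide) (by decide) (by decide) (by decide)
    (by decide) v
  rw [rho_nil, rho_nil, P_append (m := 7) le_rfl (by decide) (by decide), map_mul, Module.End.mul_apply,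
    Module.End.mul_apply] at h
  exact h

theorem y_e4 (v : M) : ρ (P 7 l42) (O ρ e4 v) = O ρ e4 v := by
  rw [e4_op]
  simp only [map_add]
  rw [y_four]
  abel

include h3 in
theorem bp_e4 {w : M} (hw : ρ (P 7 l5) w = w) : O ρ bp (O ρ e4 w) = w := by
  have hf := fam_of (ρ := ρ) (gens := g4) chk72 perm72 (w := w) (by
    intro b hb
    simp only [List.mem_cons, List.not_mem_nil, or_false] at hb
    subst hb
    exact hw)
  have h := (act_op h3 hf (.mul bp e4) (by decide) (dl 72 0) (length_dl _ _)).2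
  rw [c72, Phi_dl (by norm_num)] at h
  have h0 : ρ (P 7 (wd g4 (W72.getD 0 []))) w = w := rho_nil w
  rw [h0] at h
  exact h.symm

include h3 in
/-- the relation `ε = 0` -/
theorem eps_zero [FiniteDimensional F M] (h45 : ev (ρ (P 7 l42)) 1 = ev (ρ (P 7 l5)) 1) (u : M) : O ρ eps u = 0 := by
  let f : ↥(Module.End.eigenspace (ρ (P 7 l5)) 1) →ₗ[F] ↥(Module.End.eigenspace (ρ (P 7 l42)) 1) :=
    LinearMap.codRestrict _ ((O ρ e4) ∘ₗ (Module.End.eigenspace (ρ (P 7 l5)) 1).subtype) fun w =>
      Module.End.mem_eigenspace_iff.2 (by rw [one_smul]; exact y_e4 _)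
  have hx : ∀ w : ↥(Module.End.eigenspace (ρ (P 7 l5)) 1), ρ (P 7 l5) (w : M) = w := fun w => by
    have := Module.End.mem_eigenspace_iff.1 w.2
    rwa [one_smul] at this
  have hf : Function.Injective f := by
    rw [← LinearMap.ker_eq_bot, LinearMap.ker_eq_bot']
    intro w hw
    have h1 : O ρ e4 (w : M) = 0 := congrArg Subtype.val hw
    have h2 := bp_e4 h3 (hx w)
    rw [h1, map_zero] at h2
    exact Subtype.ext h2.symm
  have hs : Function.Surjective f := (LinearMap.injective_iff_surjective_of_finrank_eq_finrank (show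
    finrank F ↥(Module.End.eigenspace (ρ (P 7 l5)) 1) = finrank F ↥(Module.End.eigenspace (ρ (P 7 l42)) 1) from
      h45.symm)).1 hf
  obtain ⟨w, hw⟩ := hs ⟨O ρ e4 u, Module.End.mem_eigenspace_iff.2 (by rw [one_smul]; exact y_e4 _)⟩
  have h1 : O ρ e4 (w : M) = O ρ e4 u := congrArg Subtype.val hw
  have h2 := bp_e4 h3 (hx w)
  show O ρ e4 u + -(O ρ e4 (O ρ bp (O ρ e4 u))) = 0
  rw [← h1, h2, add_neg_cancel]

/-- the family of fifteen vectors -/
noncomputable def V15 (ρ : Representation F A7 M) (u : M) (i : ℕ) : M := ρ (P 7 (wd g4 (W15.getD i []))) u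

include h3 in
theorem x_fix [FiniteDimensional F M] (h45 : ev (ρ (P 7 l42)) 1 = ev (ρ (P 7 l5)) 1) {u : M}
    (hy : ρ (P 7 l42) u = u) (hc : ρ (P 7 lc) u = u) : ρ (P 7 l5) u = u := by
  have hf : IsFam (sg ρ g4) [0, 1, 2] 15 q15 (V15 ρ u) :=
    fam_of (ρ := ρ) (gens := g4) chk15 perm15 (w := u) (by
      intro b hb
      simp only [List.mem_cons, List.not_mem_nil, or_false] at hb
      rcases hb with rfl | rfl
      · exact hy
      · exact hc)
  have key : ∀ l : List (List ℕ), (∀ f ∈ l, f.length = 15) → (hsum l).length = 15 ∧ Phi F 15 (V15 ρ u) (hsum l) = 0 := by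
    intro l
    induction l with
    | nil =>
      intro _
      refine ⟨by rw [hsum, List.length_map, List.length_range], ?_⟩
      rw [Phi]
      refine Finset.sum_eq_zero fun i hi => ?_
      rw [hsum, getD_map (g := fun _ => 0) i (by rw [List.length_range]; exact Finset.mem_range.1 hi), Nat.cast_zero,
        zero_smul]
    | cons f l ih =>
      intro hl
      obtain ⟨h1, h2⟩ := ih fun g hg => hl g (List.mem_cons_of_mem _ hg)
      have a1 := act_op h3 hf eps (by decide) f (hl f List.mem_cons_self)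
      have a2 := act_op h3 hf (.gen 2) (by decide) (hsum l) h1
      refine ⟨by rw [hsum, List.length_zipWith, a1.1, a2.1, min_self], ?_⟩
      have a3 : Phi F 15 (V15 ρ u) (hsum (f :: l)) = Phi F 15 (V15 ρ u) (eps.act q15 f) +
          Phi F 15 (V15 ρ u) ((Ex.gen 2).act q15 (hsum l)) := by
        rw [Phi, Phi, Phi, ← Finset.sum_add_distrib]
        refine Finset.sum_congr rfl fun i _ => ?_
        rw [hsum, getD_zipWith (a1.1.trans a2.1.symm), cast_mod h3, Nat.cast_add, add_smul]
      rw [a3, a1.2, a2.2, h2, map_zero, add_zero]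
      exact eps_zero h3 h45 _
  have h1 := (key fs len15).2
  rw [c15] at h1
  have h2 : Phi F 15 (V15 ρ u) [1, 2, 0, 0, 0, 0, 0, 0, 0, 0, 0, 0, 0, 0, 0] = V15 ρ u 0 + (2 : F) • V15 ρ u 1 := by
    simp only [Phi, Finset.sum_range_succ, Finset.sum_range_zero, List.getD_cons_zero, List.getD_cons_succ]
    push_cast
    simp
  rw [h2] at h1
  have h0 : V15 ρ u 0 = u := rho_nil u
  have h4 : V15 ρ u 1 = ρ (P 7 l5) u := rfl
  rw [h0, h4] at h1
  have h5 : u + (2 : F) • ρ (P 7 l5) u = (u - ρ (P 7 l5) u) + (3 : F) • ρ (P 7 l5) u := by module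
  rw [h5, h3, zero_smul, add_zero, sub_eq_zero] at h1
  exact h1.symm

/-- a vector fixed by `l5, l42, lc` is fixed by `A₇` -/
theorem fix_all {u : M} (hx : ρ (P 7 l5) u = u) (hy : ρ (P 7 l42) u = u) (hc : ρ (P 7 lc) u = u) (g : A7) : ρ g u = u := by
  let R : Subgroup A7 :=
    { carrier := {g | ρ g u = u}
      one_mem' := by show ρ 1 u = u; rw [map_one]; rfl
      mul_mem' := by
        intro a b ha hb
        show ρ (a * b) u = u
        rw [map_mul, Module.End.mul_apply, show ρ b u = u from hb, show ρ a u = u from ha]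
      inv_mem' := by
        intro a ha
        show ρ a⁻¹ u = u
        have h1 : ρ a⁻¹ (ρ a u) = u := by rw [← Module.End.mul_apply, ← map_mul, inv_mul_cancel, map_one]; rfl
        rwa [show ρ a u = u from ha] at h1 }
  have key : ∀ k : Fin 7, k ≠ 0 → swap 0 1 * swap 0 k ∈ R.map (alternatingGroup (Fin 7)).subtype := by
    intro k hk
    have h1 := List.all_eq_true.1 chkStar k.val (List.mem_range.2 k.2)
    have hk0 : Nat.beq k.val 0 = false := by
      rw [← Bool.not_eq_true, nb]
      exact fun h => hk (Fin.ext h)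
    rw [hk0, Bool.false_or, Bool.and_eq_true] at h1
    obtain ⟨h1, h2⟩ := h1
    have h4 := eq_of_beq h1
    have hkv : k.val ≠ 0 := fun h => hk (Fin.ext h)
    have v1 : vl 7 [(0, 1), (0, k.val)] = true := by
      rw [vl_iff]
      refine ⟨by simp, ?_⟩
      intro p hp
      simp only [List.mem_cons, List.not_mem_nil, or_false] at hp
      rcases hp with rfl | rfl
      · exact ⟨by norm_num, by norm_num, by norm_num⟩
      · exact ⟨by norm_num, k.2, fun h => hkv h.symm⟩
    have h5 := P_rel (vl_wd vl_g4 _) v1 h4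
    refine ⟨P 7 [(0, 1), (0, k.val)], ?_, ?_⟩
    · rw [← h5]
      refine fix_wd vl_g4 (B := [0, 1, 2]) ?_ ?_
      · intro b hb
        simp only [List.mem_cons, List.not_mem_nil, or_false] at hb
        rcases hb with rfl | rfl | rfl
        · exact hx
        · exact hy
        · exact hc
      · rw [List.all_eq_true] at h2 ⊢
        intro b hb
        have := h2 b hb
        have hb3 : b < 3 := by
          rw [Nat.blt_eq] at this
          exact this
        interval_cases b <;> rfl
    · show ((P 7 [(0, 1), (0, k.val)] : A7) : Perm (Fin 7)) = _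
      rw [coe_P le_rfl v1]
      show (swap (Fin.ofNat 7 0) (Fin.ofNat 7 1) * (swap (Fin.ofNat 7 0) (Fin.ofNat 7 k.val) * 1) : Perm (Fin 7)) = _
      rw [mul_one]
      congr 2
      apply Fin.ext
      rw [Fin.val_ofNat, Nat.mod_eq_of_lt k.2]
  have h := Cfsg.Agent.H952.F4.Gen.mem_of_star (n := 5) (R.map (alternatingGroup (Fin 7)).subtype) (by
    rintro _ ⟨a, -, rfl⟩
    exact a.2) key g.2
  obtain ⟨a, ha, ha'⟩ := h
  have : a = g := Subtype.ext ha'
  rw [← this]
  exact ha

include h3 in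
/-- **Every vector fixed by `L₂(7)` is fixed by `A₇`.** -/
theorem fixed_all [FiniteDimensional F M] (h45 : ev (ρ (P 7 l42)) 1 = ev (ρ (P 7 l5)) 1) {u : M}
    (hy : ρ (P 7 l42) u = u) (hc : ρ (P 7 lc) u = u) (g : A7) : ρ g u = u :=
  fix_all (x_fix h3 h45 hy hc) hy hc g

end Cfsg.Agent.R2.T1.N7H
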